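import Cfsg.Agent.HN.AutHS
import Cfsg.Agent.HN.CoverUnique
import Cfsg.Agent.H704.Spor49.PermCent
import Cfsg.Agent.H153.ZerosTool
import Cfsg.Agent.H710.VanCount
import Cfsg.Agent.H620.PNorm

/-!
# S4555: the prime 2 for `HS` (helper123)

An element `x` of order 8 (class 8A) whose centralizer in the automorphism group of the graph on 100 points has order
at most 32 and contains an odd permutation: `|C(x)| ≤ 16` in `HS`, which has more than 16 classes.
-/

set_option autoImplicit false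
set_option maxRecDepth 100000

namespace Cfsg.Agent.H123.PV.HS

open Cfsg Equiv Cfsg.Agent.SporadicA.PermTab Cfsg.Agent.HN Cfsg.Agent.HN.HS100 Cfsg.Agent.HN.AutBound
open Cfsg.Agent.H704.Spor49.PermCent Cfsg.Agent.H153.Zeros Cfsg.Agent.H710.VanCount

/-- the table of the element of order 8 -/
def t8 : ℕ := 0x760741103305e1782681207a1481d03e0c21381e05505813014043062160060080601242504604a0981384f03c07c0186206e1800802e07e0142e0140641740583401a0b40205f02c150288090220682b0630900381204b0ae0642d8020a00041a8450261042983608811c0304008405c1582103803c148590140e01185a0400540c03900e0000d82a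

/-- an odd automorphism of the graph commuting with it -/
def tc : ℕ := 0x580281904504a0d02e81e0201682c80f06e0982a8540501480c8040840382684c02c1282480d0600a43001307213c2080b0460701083c0120e82181d0ae0d80a05e04e1840f8470480b8110630560a8230530661582f82f07e0b41e8200621701c03e02e0682881803612c0a8350880040885b0b01382400c0801881d80800e0180285000600809000

def tO : ℕ := 0xb20b42881f0260143000804a110278420320c41100002a1540d05f022114248100c21002405e0a403c138530740a81a83802c0702e83b00e10c2302c0301400302b0820103181e0120e41485c0980c02a04709a0fc2b81d09c0d00601207c1580500206c0380a00101612c2d0240660bc1403c0941881180304c0f41b85802e0840685b0360801902e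
def tR : ℕ := 0x620382585d0a01201e82c0080543180804a0782902908811c308360b208c1382b02c03c268490500e42705a0741601984a04c07c0501007810c1704001206c208220260042b02a024000310380681081681108a02c2d81401a154030020c00c01203e0061442b83700e0fc298190be0802784c08c0680282102e0741785c0760d42f0320180700c054

theorem memQ {L : List ℕ} (h : ∀ P ∈ L, P = tX ∨ P = tY ∨ P = tW) : ∀ P ∈ L, InG Q P := by
  intro P hP
  rcases h P hP with rfl | rfl | rfl
  · exact inX
  · exact inY
  · exact inW

theorem mW {L : List ℕ} (h : L ⊆ [tX, tY, tW]) : ∀ P ∈ L, InG Q P :=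
  memQ fun P hP => by
    have := h hP
    simpa only [List.mem_cons, List.not_mem_nil, or_false] using this

theorem inT8 : InG Q t8 := word_of (L := [tX, tY, tW]) (mem3 inX inY inW) (by simp) (by decide +kernel)

theorem invC : chkInv 100 tc tc = true := by decide +kernel

/-- the odd automorphism -/
def c0 : Perm (Fin 100) := mkPerm tc tc invC

theorem c0_mem : c0 ∈ autG 100 adjA :=
  mkPerm_mem_autG invC (rowsOK_of_chk (chkInv_lt invC) (chkInv_inj invC) (by decide +kernel))

theorem cntC : cntB (fun i => cond (Nat.beq (lk tc i) i) false true) 100 70 = true := by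
  decide +kernel

theorem c0_sq : c0 * c0 = 1 := by
  refine Equiv.ext fun i => Fin.ext ?_
  have h : allB (fun i => Nat.beq (lk tc (lk tc i)) i) 100 = true := by decide +kernel
  exact Nat.eq_of_beq_eq_true ((allB_iff _ _).1 h i i.2)

theorem sign_c0 : Perm.sign c0 = -1 := by
  have h2 : c0.support.card = 70 := by
    rw [← card_fin_of_cntB _ 100 70 cntC]
    congr 1
  rw [sign_of_involution c0_sq, h2]
  decide

/-! ### the centralizer -/

section

variable {w : Perm (Fin 100)} (hw : ∀ i : Fin 100, ((w i : Fin 100) : ℕ) = lk t8 i)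
include hw

theorem comm_c0 : c0 * w = w * c0 := by
  refine Equiv.ext fun i => Fin.ext ?_
  rw [Perm.mul_apply, Perm.mul_apply, hw]
  change lk tc (w i : Fin 100) = lk t8 (lk tc i)
  rw [hw]
  have h : allB (fun i => Nat.beq (lk tc (lk t8 i)) (lk t8 (lk tc i))) 100 = true := by decide +kernel
  exact Nat.eq_of_beq_eq_true ((allB_iff _ _).1 h i i.2)

/-- the test for the images of `1` -/
def T8 (v : ℕ) : Bool := Nat.beq (cd 100 adjA t8 v 8 v) (cd 100 adjA t8 1 8 1)

omit hw in
theorem cnt8 : cntB T8 100 32 = true := by decide +kernel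

omit hw in
theorem not0 : notMemB 0 (orbL t8 8 1) = true := by decide +kernel
omit hw in
theorem not4 : notMemB 4 (orbL t8 8 0 ++ orbL t8 8 1) = true := by decide +kernel
omit hw in
theorem not5 : notMemB 5 (orbL t8 8 4 ++ (orbL t8 8 0 ++ orbL t8 8 1)) = true := by decide +kernel

omit hw in
theorem u0 : cntB (fun v => band (Nat.beq (cd 100 adjA t8 v 8 v) (cd 100 adjA t8 0 8 0))
    (patt 100 adjA (orbL t8 8 1) 0 v)) 100 1 = true := by decide +kernel
omit hw in
theorem u4 : cntB (fun v => band (Nat.beq (cd 100 adjA t8 v 8 v) (cd 100 adjA t8 4 8 4))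
    (patt 100 adjA (orbL t8 8 0 ++ orbL t8 8 1) 4 v)) 100 1 = true := by decide +kernel
omit hw in
theorem u5 : cntB (fun v => band (Nat.beq (cd 100 adjA t8 v 8 v) (cd 100 adjA t8 5 8 5))
    (patt 100 adjA (orbL t8 8 4 ++ (orbL t8 8 0 ++ orbL t8 8 1)) 5 v)) 100 1 = true := by decide +kernel

omit hw in
theorem dist8 : chkDist 100 adjA (maskL (orbL t8 8 5 ++ (orbL t8 8 4 ++ (orbL t8 8 0 ++ orbL t8 8 1)))) tR tO = true := by
  decide +kernel

omit hw in
/-- the centralizer in the automorphism group of the graph -/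
def H8 (w : Perm (Fin 100)) : Subgroup (Perm (Fin 100)) := autG 100 adjA ⊓ Subgroup.centralizer {w}

omit hw in
theorem comm_of_mem {c : Perm (Fin 100)} (hc : c ∈ H8 w) : c * w = w * c :=
  Subgroup.mem_centralizer_singleton_iff.1 hc.2

theorem card_ps8 : Nat.card (ps (H8 w) (1 : Fin 100)) ≤ 1 := by
  rw [Subgroup.card_le_one_iff_eq_bot, Subgroup.eq_bot_iff_forall]
  intro c hc
  have h1 : Fx c 1 := ⟨by norm_num, fun i hi => by
    have : i = 1 := Fin.ext hi
    rw [this]
    exact hc.2⟩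
  have hcw := comm_of_mem hc.1
  have F1 := fx_orbL hw hcw 8 h1
  have f0 := fx_of_cnt hw hc.1.1 hcw F1 0 8 (by norm_num) not0 u0
  have F0 : ∀ f ∈ orbL t8 8 0 ++ orbL t8 8 1, Fx c f := fun f hf => by
    rcases List.mem_append.1 hf with h | h
    · exact fx_orbL hw hcw 8 f0 f h
    · exact F1 f h
  have f4 := fx_of_cnt hw hc.1.1 hcw F0 4 8 (by norm_num) not4 u4
  have F4 : ∀ f ∈ orbL t8 8 4 ++ (orbL t8 8 0 ++ orbL t8 8 1), Fx c f := fun f hf => by
    rcases List.mem_append.1 hf with h | h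
    · exact fx_orbL hw hcw 8 f4 f h
    · exact F0 f h
  have f5 := fx_of_cnt hw hc.1.1 hcw F4 5 8 (by norm_num) not5 u5
  refine eq_one_of_dist dist8 c hc.1.1 fun f hf => ?_
  rcases List.mem_append.1 hf with h | h
  · exact fx_orbL hw hcw 8 f5 f h
  · exact F4 f h

theorem card_H8 : Nat.card (H8 w) ≤ 32 := by
  refine card_le_of (m := 32) (k := 1) (1 : Fin 100) T8 (fun c hc => ?_) cnt8 (card_ps8 hw)
  have h1 := cd_inv hw hc.1 (comm_of_mem hc) 8 1 1
  unfold T8
  rw [Nat.beq_eq]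
  exact h1

end

theorem finite_Q : Finite Q := AutHS.finite_Q

/-- twice the centralizer in `Q` -/
theorem card_cent {x : Q} (hx : ∀ i : Fin 100, (((x : Perm (Fin 100)) i : Fin 100) : ℕ) = lk t8 i) :
    Nat.card (Subgroup.centralizer ({x} : Set Q)) ≤ 16 := by
  have hm1 : ∀ a : Subgroup.centralizer ({x} : Set Q), ((a : Q) : Perm (Fin 100)) ∈ H8 (x : Perm (Fin 100)) := fun a =>
    ⟨Q_le a.1.2, Subgroup.mem_centralizer_singleton_iff.2
      (congrArg Subtype.val (Subgroup.mem_centralizer_singleton_iff.1 a.2))⟩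
  have hm2 : ∀ a : Subgroup.centralizer ({x} : Set Q),
      c0 * ((a : Q) : Perm (Fin 100)) ∈ H8 (x : Perm (Fin 100)) := fun a =>
    ⟨mul_mem c0_mem (Q_le a.1.2), Subgroup.mem_centralizer_singleton_iff.2 (by
        have h1 := congrArg Subtype.val (Subgroup.mem_centralizer_singleton_iff.1 a.2)
        have h2 : ((a : Q) : Perm (Fin 100)) * (x : Perm (Fin 100)) = x * ((a : Q) : Perm (Fin 100)) := h1
        rw [mul_assoc, h2, ← mul_assoc, comm_c0 hx, mul_assoc])⟩
  let f : Subgroup.centralizer ({x} : Set Q) × Bool → H8 (x : Perm (Fin 100)) := fun p =>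
    match p with
    | (a, false) => ⟨_, hm1 a⟩
    | (a, true) => ⟨_, hm2 a⟩
  have hs : ∀ g : Q, Perm.sign (g : Perm (Fin 100)) = 1 := fun g => (mem_Q_iff.1 g.2).2
  have hf : Function.Injective f := by
    rintro ⟨a, _ | _⟩ ⟨b, _ | _⟩ h
    · have h1 : ((a : Q) : Perm (Fin 100)) = ((b : Q) : Perm (Fin 100)) :=
        (congrArg Subtype.val h : (f (a, false) : Perm (Fin 100)) = f (b, false))
      rw [Subtype.ext (Subtype.ext h1)]
    · exfalso
      have h1 : ((a : Q) : Perm (Fin 100)) = c0 * ((b : Q) : Perm (Fin 100)) :=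
        (congrArg Subtype.val h : (f (a, false) : Perm (Fin 100)) = f (b, true))
      have h2 := congrArg Perm.sign h1
      rw [Perm.sign_mul, hs, hs, sign_c0] at h2
      exact absurd h2 (by decide)
    · exfalso
      have h1 : c0 * ((a : Q) : Perm (Fin 100)) = ((b : Q) : Perm (Fin 100)) :=
        (congrArg Subtype.val h : (f (a, true) : Perm (Fin 100)) = f (b, false))
      have h2 := congrArg Perm.sign h1
      rw [Perm.sign_mul, hs, hs, sign_c0] at h2
      exact absurd h2 (by decide)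
    · have h1 : c0 * ((a : Q) : Perm (Fin 100)) = c0 * ((b : Q) : Perm (Fin 100)) :=
        (congrArg Subtype.val h : (f (a, true) : Perm (Fin 100)) = f (b, true))
      rw [Subtype.ext (Subtype.ext (mul_left_cancel h1))]
  have h1 := Nat.card_le_card_of_injective f hf
  rw [Nat.card_prod, Nat.card_eq_fintype_card (α := Bool), Fintype.card_bool] at h1
  have h2 := card_H8 hx
  omega

/-! ### automorphisms -/

theorem isConj_aut {x : Q} (hx : ∀ i : Fin 100, (((x : Perm (Fin 100)) i : Fin 100) : ℕ) = lk t8 i)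
    (α : MulAut Q) : IsConj x (α x) := by
  obtain ⟨p, hp, h⟩ := AutHS.exists_perm α
  rcases Int.units_eq_one_or (Perm.sign p) with h1 | h1
  · exact isConj_iff.2 ⟨⟨p, mem_Q_iff.2 ⟨hp, h1⟩⟩, Subtype.ext (h x).symm⟩
  · have h2 : p * c0 ∈ Q := mem_Q_iff.2 ⟨mul_mem hp c0_mem, by rw [Perm.sign_mul, h1, sign_c0]; decide⟩
    refine isConj_iff.2 ⟨⟨p * c0, h2⟩, Subtype.ext ?_⟩
    change p * c0 * (x : Perm (Fin 100)) * (p * c0)⁻¹ = ((α x : Q) : Perm (Fin 100))
    rw [h x, mul_inv_rev, mul_assoc p c0, comm_c0 hx]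
    group

/-! ### classes -/

theorem exists_el {L : List ℕ} (h : ∀ P ∈ L, InG Q P) {m : ℕ} (hm : 0 < m) (ps : List ℕ)
    (hps : ∀ p ∈ m.primeFactors, p ∈ ps) (hchk : ordChk 100 L m ps = true) {a : ℕ}
    (ha : cntB (fun i => Nat.beq (bitM 100 adjA i (ev L i)) 1) 100 a = true) :
    ∃ g : Q, orderOf g = m ∧ ac 100 adjA (g : Perm (Fin 100)) = a := by
  obtain ⟨g, hg, hgi⟩ := exists_ev L h
  rw [ordChk, band_eq_true, List.all_eq_true] at hchk
  refine ⟨⟨g, hg⟩, orderOf_eq_of_pow_and_pow_div_prime hm ?_ fun p hp hd => ?_, ac_of_cnt hgi ha⟩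
  · exact Subtype.ext ((pow_eq_one_iff hgi m).2 hchk.1)
  · intro h1
    have h2 := hchk.2 p (hps p (Nat.mem_primeFactors.2 ⟨hp, hd, hm.ne'⟩))
    rw [(pow_eq_one_iff hgi (m / p)).1 (congrArg Subtype.val h1)] at h2
    exact absurd h2 (by decide)

theorem not_conj {g h : Q} {a b : ℕ} (hg : ac 100 adjA (g : Perm (Fin 100)) = a)
    (hh : ac 100 adjA (h : Perm (Fin 100)) = b) (hab : a ≠ b) : ¬ IsConj g h := by
  intro hc
  obtain ⟨c, hc⟩ := isConj_iff.1 hc
  have h1 : (c : Perm (Fin 100)) * g * (c : Perm (Fin 100))⁻¹ = h := congrArg Subtype.val hc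
  have h2 := ac_conj (A := adjA) (Q_le c.2) (g : Perm (Fin 100))
  rw [h1, hg, hh] at h2
  exact hab h2.symm

theorem e2a : ∃ g : Q, orderOf g = 2 ∧ ac 100 adjA (g : Perm (Fin 100)) = 40 :=
  exists_el (L := [tX]) (mW (by simp)) (by norm_num) [2] (by decide +kernel) (by decide +kernel) (by decide +kernel)
theorem e2b : ∃ g : Q, orderOf g = 2 ∧ ac 100 adjA (g : Perm (Fin 100)) = 0 :=
  exists_el (L := [tY, tY, tY]) (mW (by simp)) (by norm_num) [2] (by decide +kernel) (by decide +kernel) (by decide +kernel)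
theorem e3 : ∃ g : Q, orderOf g = 3 ∧ ac 100 adjA (g : Perm (Fin 100)) = 0 :=
  exists_el (L := [tY, tY]) (mW (by simp)) (by norm_num) [3] (by decide +kernel) (by decide +kernel) (by decide +kernel)
theorem e4a : ∃ g : Q, orderOf g = 4 ∧ ac 100 adjA (g : Perm (Fin 100)) = 8 :=
  exists_el (L := [tX, tY, tX, tY]) (mW (by simp)) (by norm_num) [2] (by decide +kernel) (by decide +kernel) (by decide +kernel)
theorem e4b : ∃ g : Q, orderOf g = 4 ∧ ac 100 adjA (g : Perm (Fin 100)) = 16 :=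
  exists_el (L := [tX, tY, tX, tW, tW]) (mW (by simp)) (by norm_num) [2] (by decide +kernel) (by decide +kernel) (by decide +kernel)
theorem e5a : ∃ g : Q, orderOf g = 5 ∧ ac 100 adjA (g : Perm (Fin 100)) = 0 :=
  exists_el (L := [tX, tY, tY, tX, tY, tY]) (mW (by simp)) (by norm_num) [5] (by decide +kernel) (by decide +kernel) (by decide +kernel)
theorem e5b : ∃ g : Q, orderOf g = 5 ∧ ac 100 adjA (g : Perm (Fin 100)) = 10 :=
  exists_el (L := [tY, tW]) (mW (by simp)) (by norm_num) [5] (by decide +kernel) (by decide +kernel) (by decide +kernel)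
theorem e6a : ∃ g : Q, orderOf g = 6 ∧ ac 100 adjA (g : Perm (Fin 100)) = 40 :=
  exists_el (L := [tX, tY, tW, tY, tW]) (mW (by simp)) (by norm_num) [2, 3] (by decide +kernel) (by decide +kernel) (by decide +kernel)
theorem e6b : ∃ g : Q, orderOf g = 6 ∧ ac 100 adjA (g : Perm (Fin 100)) = 24 :=
  exists_el (L := [tY]) (mW (by simp)) (by norm_num) [2, 3] (by decide +kernel) (by decide +kernel) (by decide +kernel)
theorem e7 : ∃ g : Q, orderOf g = 7 ∧ ac 100 adjA (g : Perm (Fin 100)) = 14 :=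
  exists_el (L := [tX, tY, tY, tW]) (mW (by simp)) (by norm_num) [7] (by decide +kernel) (by decide +kernel) (by decide +kernel)
theorem e8a : ∃ g : Q, orderOf g = 8 ∧ ac 100 adjA (g : Perm (Fin 100)) = 20 :=
  exists_el (L := [tX, tY]) (mW (by simp)) (by norm_num) [2] (by decide +kernel) (by decide +kernel) (by decide +kernel)
theorem e8b : ∃ g : Q, orderOf g = 8 ∧ ac 100 adjA (g : Perm (Fin 100)) = 24 :=
  exists_el (L := [tX, tY, tW]) (mW (by simp)) (by norm_num) [2] (by decide +kernel) (by decide +kernel) (by decide +kernel)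
theorem e10 : ∃ g : Q, orderOf g = 10 ∧ ac 100 adjA (g : Perm (Fin 100)) = 40 :=
  exists_el (L := [tX, tY, tY]) (mW (by simp)) (by norm_num) [2, 5] (by decide +kernel) (by decide +kernel) (by decide +kernel)
theorem e11 : ∃ g : Q, orderOf g = 11 ∧ ac 100 adjA (g : Perm (Fin 100)) = 22 :=
  exists_el (L := [tX, tY, tY, tY, tW]) (mW (by simp)) (by norm_num) [11] (by decide +kernel) (by decide +kernel) (by decide +kernel)
theorem e12 : ∃ g : Q, orderOf g = 12 ∧ ac 100 adjA (g : Perm (Fin 100)) = 20 :=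
  exists_el (L := [tX, tY, tY, tY]) (mW (by simp)) (by norm_num) [2, 3] (by decide +kernel) (by decide +kernel) (by decide +kernel)
theorem e20 : ∃ g : Q, orderOf g = 20 ∧ ac 100 adjA (g : Perm (Fin 100)) = 30 :=
  exists_el (L := [tX, tY, tY, tW, tY]) (mW (by simp)) (by norm_num) [2, 5] (by decide +kernel) (by decide +kernel) (by decide +kernel)

theorem card_classes : 17 ≤ Nat.card (ConjClasses Q) := by
  have := finite_Q
  have h17 : 17 = ({1, 2, 3, 4, 5, 6, 7, 8, 10, 11, 12, 20} : Finset ℕ).card + ({2, 4, 5, 6, 8} : Finset ℕ).card := by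
    decide
  rw [h17]
  refine le_card_conjClasses_two (G := Q) {1, 2, 3, 4, 5, 6, 7, 8, 10, 11, 12, 20} {2, 4, 5, 6, 8} ?_ ?_
  · intro n hn
    simp only [Finset.mem_insert, Finset.mem_singleton] at hn
    rcases hn with rfl | rfl | rfl | rfl | rfl | rfl | rfl | rfl | rfl | rfl | rfl | rfl
    · exact ⟨1, orderOf_one⟩
    · obtain ⟨g, h, -⟩ := e2a; exact ⟨g, h⟩
    · obtain ⟨g, h, -⟩ := e3; exact ⟨g, h⟩
    · obtain ⟨g, h, -⟩ := e4a; exact ⟨g, h⟩
    · obtain ⟨g, h, -⟩ := e5a; exact ⟨g, h⟩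
    · obtain ⟨g, h, -⟩ := e6a; exact ⟨g, h⟩
    · obtain ⟨g, h, -⟩ := e7; exact ⟨g, h⟩
    · obtain ⟨g, h, -⟩ := e8a; exact ⟨g, h⟩
    · obtain ⟨g, h, -⟩ := e10; exact ⟨g, h⟩
    · obtain ⟨g, h, -⟩ := e11; exact ⟨g, h⟩
    · obtain ⟨g, h, -⟩ := e12; exact ⟨g, h⟩
    · obtain ⟨g, h, -⟩ := e20; exact ⟨g, h⟩
  · intro n hn
    simp only [Finset.mem_insert, Finset.mem_singleton] at hn
    rcases hn with rfl | rfl | rfl | rfl | rfl
    · obtain ⟨g, h, ha⟩ := e2a
      obtain ⟨g', h', ha'⟩ := e2b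
      exact ⟨g, g', h, h', not_conj ha ha' (by norm_num)⟩
    · obtain ⟨g, h, ha⟩ := e4a
      obtain ⟨g', h', ha'⟩ := e4b
      exact ⟨g, g', h, h', not_conj ha ha' (by norm_num)⟩
    · obtain ⟨g, h, ha⟩ := e5a
      obtain ⟨g', h', ha'⟩ := e5b
      exact ⟨g, g', h, h', not_conj ha ha' (by norm_num)⟩
    · obtain ⟨g, h, ha⟩ := e6a
      obtain ⟨g', h', ha'⟩ := e6b
      exact ⟨g, g', h, h', not_conj ha ha' (by norm_num)⟩
    · obtain ⟨g, h, ha⟩ := e8a
      obtain ⟨g', h', ha'⟩ := e8b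
      exact ⟨g, g', h, h', not_conj ha ha' (by norm_num)⟩

theorem order8 {x : Q} (hx : ∀ i : Fin 100, (((x : Perm (Fin 100)) i : Fin 100) : ℕ) = lk t8 i) :
    orderOf x = 8 := by
  have hx' : ∀ i : Fin 100, (((x : Perm (Fin 100)) i : Fin 100) : ℕ) = ev [t8] i := hx
  refine orderOf_eq_of_pow_and_pow_div_prime (by norm_num) ?_ fun p hp hd => ?_
  · exact Subtype.ext ((pow_eq_one_iff hx' 8).2 (by decide +kernel))
  · have h2 : p = 2 := (Nat.prime_dvd_prime_iff_eq hp Nat.prime_two).1 (hp.dvd_of_dvd_pow (show p ∣ 2 ^ 3 from hd))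
    subst h2
    intro h1
    have h3 := (pow_eq_one_iff hx' (8 / 2)).1 (congrArg Subtype.val h1)
    revert h3
    decide +kernel

theorem vPow_Q : H620.PNorm.VPow 2 Q := by
  have := finite_Q
  obtain ⟨g, hg, hgi⟩ := inT8
  refine ⟨⟨g, hg⟩, ⟨3, order8 (x := ⟨g, hg⟩) hgi⟩, vz_of_card _
    (lt_of_le_of_lt (card_cent (x := ⟨g, hg⟩) hgi) (lt_of_lt_of_le (by norm_num) card_classes)) fun α => ⟨1, ?_⟩⟩
  rw [pow_one]
  exact isConj_aut hgi α

/-- **`HS` at 2.** -/
theorem hs_2 {K : Type*} [Group K] (h : Spor.IsoHS K) : H620.PNorm.VPow 2 K := by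
  obtain ⟨e⟩ := h
  obtain ⟨⟨f⟩, -⟩ := AutHS.nonempty_Q
  exact vPow_Q.mulEquiv (f.trans e.symm)

end Cfsg.Agent.H123.PV.HS
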