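import Cfsg.Agent.H904.PR.JJ
import Cfsg.Agent.H620.PNorm

/-!
# S4555: the prime 2 for `J2` and `J3` (helper123)
-/

set_option autoImplicit false

namespace Cfsg.Agent.H123.PV

open Cfsg Cfsg.Agent.H713 Cfsg.Agent.H713.Spor Subgroup
open Cfsg.Agent.H713.Spor.JJ Cfsg.Agent.J2Type.Model Cfsg.Agent.H710.VanCount

universe u v

section

variable {G : Type v} [Group G] [Finite G] {t : G}
variable {Q : Subgroup (centralizer ({t} : Set G))} {v : Fin 5 → centralizer ({t} : Set G)}
  {ρ : centralizer ({t} : Set G) →* SP} {z : centralizer ({t} : Set G)}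

/-- The element of order 8 is a zero: its centralizer has order 8, and there are more than 8 classes. -/
theorem vPow_two_of_orders (hz : (z : G) = t) (M : IsModel Q z v ρ)
    (hα : ∀ α : MulAut G, IsConj t (α t)) : H620.PNorm.VPow 2 G := by
  have hk' : 8 < Nat.card (ConjClasses G) := by
    refine lt_of_lt_of_le (show 8 < _ by decide) (le_card_conjClasses ({1, 2, 3, 4, 5, 6, 8, 10, 12} : Finset ℕ) fun n hn => ?_)
    exact Cfsg.Agent.H419.Spor.JModel.exists_orders' M n hn
  obtain ⟨x, hx, hx1⟩ := exists_eight M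
  have hox : orderOf x = 8 := by
    refine Cfsg.Agent.H419.Spor.JModel.orderOf_of_pow M (n := 4) (by norm_num) hx fun p hp h2 hd => ?_
    exact absurd ((Nat.prime_dvd_prime_iff_eq hp Nat.prime_two).1
      (hp.dvd_of_dvd_pow (show p ∣ 2 ^ 2 from hd))) h2
  have hox' : orderOf (x : G) = 8 := by rw [Subgroup.orderOf_coe, hox]
  have hle := cent_le hz hx fun g hg => cent_eight M hx hx1 hg
  refine ⟨(x : G), ⟨3, hox'⟩, vz_of_card _ (lt_of_le_of_lt (Subgroup.card_le_of_le hle) ?_) fun α => ?_⟩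
  · rw [Nat.card_zpowers, hox']
    omega
  · exact exists_conj_aut hz hα hx (fun _ => True) (fun _ _ _ => trivial) (fun _ => trivial)
      (fun y hy _ => conj_eight M hx hx1 hy) α

end

/-- **`J2` at 2.** -/
theorem j2_2 {K : Type u} [Group K] (h : Spor.IsoJ2 K) : H620.PNorm.VPow 2 K := by
  have hcard0 := Cfsg.Agent.NotCT.Orders.j2 h
  have : Finite K := Nat.finite_of_card_ne_zero (by rw [hcard0]; norm_num)
  obtain ⟨t, u, Q, v, ρ, D⟩ := Cfsg.Agent.KFacts.J2.Facts.exists_dat_of h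
  exact vPow_two_of_orders rfl D.M fun α => D.isConj_aut α

/-- **`J3` at 2.** -/
theorem j3_2 {K : Type u} [Group K] (h : Spor.IsoJ3 K) : H620.PNorm.VPow 2 K := by
  have hcard0 := Cfsg.Agent.NotCT.Orders.j3 h
  have : Finite K := Nat.finite_of_card_ne_zero (by rw [hcard0]; norm_num)
  obtain ⟨hcard, hM, hone, -⟩ := Cfsg.Agent.CpAutJThree.base h
  have : Fact (Nat.Prime 2) := ⟨Nat.prime_two⟩
  obtain ⟨t, ht⟩ := exists_prime_orderOf_dvd_card' (G := K) 2 (by rw [hcard]; norm_num)
  obtain ⟨-, hC, Q, v, ρ, M⟩ := hM t ht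
  exact vPow_two_of_orders rfl M fun α => hone _ _ ht (by rw [MulEquiv.orderOf_eq, ht])

end Cfsg.Agent.H123.PV
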