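import Cfsg.Agent.H896.Van.Suz
import Cfsg.Agent.H620.PNorm

/-!
# S4555: the prime 2 for `Suz` (helper123)

The element `d c b g c f` has order 8, no fixed points in the action on 1782 points, and maps 432 points to points of
the orbital of size 416: the irreducible character of degree 780 vanishes there.
-/

set_option autoImplicit false
set_option maxRecDepth 100000
set_option exponentiation.threshold 5000

namespace Cfsg.Agent.H123.PV.Suz

open Cfsg Cfsg.Agent Cfsg.Spor Cfsg.Agent.Lib.PermNet Cfsg.Agent.Lib.PermNetOrbit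
open Cfsg.Agent.SporadicRecognition.SuzPhi Cfsg.Agent.SporadicRecognition.SuzBound
open Cfsg.Agent.SporadicRecognition.SuzOrder Cfsg.Agent.KFacts.SuzRho Cfsg.Agent.Characters.Core
open Cfsg.Agent.H896.Van.Walk Cfsg.Agent.H896.Van.SuzVal

/-- the element of order 8 -/
def w1 : List Suz.Gen := [.d, .c, .b, .g, .c, .f]

/-- its image under the automorphism -/
def w2 : List Suz.Gen := [.d, .c, .b, .f, .c, .g]

theorem chk_1 : chk 11 (wd w1) (wd wlk) U2 1782 432 = true := by decide +kernel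

theorem chk_2 : chk 11 (wd w2) (wd wlk) U2 1782 432 = true := by decide +kernel

theorem val_1 : {q : ℕ | Rn φ 1366 q (φ (el w1) q)}.ncard = 432 ∧
    {q : ℕ | q < 1782 ∧ φ (el w1) q = q}.ncard = 0 :=
  value rep2 (by norm_num) (by norm_num) (wd_ok _) wlk_ok wlk_ex (φ_el _) chk_1 (by decide +kernel)
    (by decide +kernel)

theorem val_2 : {q : ℕ | Rn φ 1366 q (φ (el w2) q)}.ncard = 432 ∧
    {q : ℕ | q < 1782 ∧ φ (el w2) q = q}.ncard = 0 :=
  value rep2 (by norm_num) (by norm_num) (wd_ok _) wlk_ok wlk_ex (φ_el _) chk_2 (by decide +kernel)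
    (by decide +kernel)

theorem vz_of {w : List Suz.Gen} {χ : IrrCharacter Suz} (h : (χ : Suz → ℂ) (el w) = 0)
    (h' : (χ : Suz → ℂ) (el (w.map sw)) = 0) : H713.VZ Suz (el w) := by
  have hfin : Finite Suz := Cfsg.Agent.SporadicRecognition.SuzBound.finite_Suz
  refine ⟨χ, fun α => ?_⟩
  obtain ⟨s, hs | hs⟩ := H896.Van.Suz.aut_cases α
  · rw [hs, MulAut.conj_apply]
    exact (isIrr_isClassFunction χ.2 (el w) s).trans h
  · rw [hs, MulAut.mul_apply, rho_el, MulAut.conj_apply]
    exact (isIrr_isClassFunction χ.2 (el (w.map sw)) s).trans h'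

theorem vz_1 : H713.VZ Suz (el w1) := by
  obtain ⟨χ, hχ⟩ := H896.Van.SuzVal.exists_irr
  refine vz_of (χ := χ) ?_ ?_
  · have h := hχ (el w1)
    rw [val_1.1, val_1.2] at h
    have h2 : (36 : ℂ) * (χ : Suz → ℂ) (el w1) = 0 := by rw [h]; norm_num
    exact (mul_eq_zero.1 h2).resolve_left (by norm_num)
  · have e : w1.map sw = w2 := rfl
    rw [e]
    have h := hχ (el w2)
    rw [val_2.1, val_2.2] at h
    have h2 : (36 : ℂ) * (χ : Suz → ℂ) (el w2) = 0 := by rw [h]; norm_num
    exact (mul_eq_zero.1 h2).resolve_left (by norm_num)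

theorem order_1 : ∃ j, orderOf (el w1) = 2 ^ j := by
  have h8 : (el w1) ^ (2 ^ 3) = 1 := by
    rw [← el_rp]
    exact el_eq_one (by decide +kernel)
  obtain ⟨j, -, hj⟩ := (Nat.dvd_prime_pow Nat.prime_two).1 (orderOf_dvd_of_pow_eq_one h8)
  exact ⟨j, hj⟩

/-- **`Suz` at 2.** -/
theorem suz_2 {K : Type*} [Group K] (h : Spor.IsoSuz K) : H620.PNorm.VPow 2 K := by
  obtain ⟨e⟩ := h
  exact H620.PNorm.VPow.mulEquiv ⟨el w1, order_1, vz_1⟩ e.symm

end Cfsg.Agent.H123.PV.Suz
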